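import Cfsg.Agent.OddLocal.RankTwo.Metacyclic
import Cfsg.Agent.OddLocal.Basic
import Mathlib.NumberTheory.Multiplicity

/-! Elements of order at most `p ^ 2` of a metacyclic `p`-group without cyclic subgroups of index `p`. -/

set_option autoImplicit false

namespace Cfsg.Agent.Transfer.MetaOmega

open Cfsg Subgroup

variable {L : Type*} [Group L] [Finite L] {p : ℕ} [hp : Fact p.Prime]

/-- A normal subgroup of order `p` of a `p`-group is central. -/
theorem mem_center_of_mem_card (hL : IsPGroup p L) (Z : Subgroup L) [Z.Normal] (hZ : Nat.card Z = p)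
    {z : L} (hz : z ∈ Z) : z ∈ Subgroup.center L := by
  haveI := hL.isNilpotent
  obtain ⟨z₀, h0, h1, hc⟩ := OddLocal.exists_ne_one_mem_center_of_normal Z (fun h => by
    rw [h, Subgroup.card_bot] at hZ; exact hp.out.one_lt.ne hZ)
  have : Subgroup.zpowers z₀ = Z := by
    refine Subgroup.eq_of_le_of_card_ge (Subgroup.zpowers_le.mpr h0) ?_
    rw [hZ, Nat.card_zpowers]
    have hd : orderOf z₀ ∣ p := hZ ▸ Subgroup.orderOf_dvd_natCard Z h0
    rcases (Nat.dvd_prime hp.out).mp hd with h | h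
    · exact absurd (orderOf_eq_one_iff.mp h) h1
    · exact h.ge
  rw [← this] at hz
  exact (Subgroup.zpowers_le.mpr hc) hz

variable (hL : IsPGroup p L) (N : Subgroup L) [N.Normal] [IsCyclic N]

theorem zpowers_conj_eq {m : L} (hm : m ∈ N) (g : L) :
    Subgroup.zpowers m = Subgroup.zpowers (g * m * g⁻¹) :=
  OddLocal.eq_of_card_eq_of_isCyclic (inferInstance : IsCyclic N) (Subgroup.zpowers_le.mpr hm)
    (Subgroup.zpowers_le.mpr ((inferInstance : N.Normal).conj_mem m hm g))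
    (by
      rw [Nat.card_zpowers, Nat.card_zpowers]
      exact (orderOf_injective (MulAut.conj g).toMonoidHom (MulAut.conj g).injective m).symm)

/-- An element of order dividing `p` of a normal cyclic subgroup is central. -/
theorem mem_center_of_cyclic (hL : IsPGroup p L) {z : L} (hz : z ∈ N) (hzp : z ^ p = 1) :
    z ∈ Subgroup.center L := by
  by_cases h1 : z = 1
  · subst h1; exact Subgroup.one_mem _
  have ho : orderOf z = p := orderOf_eq_prime hzp h1
  haveI : (Subgroup.zpowers z).Normal := ⟨by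
    rintro x hx g
    have hxN : x ∈ N := (Subgroup.zpowers_le.mpr hz) hx
    obtain ⟨i, rfl⟩ := hx
    rw [← conj_zpow]
    refine Subgroup.zpow_mem _ ?_ i
    rw [zpowers_conj_eq N hz g]
    exact Subgroup.mem_zpowers _⟩
  exact mem_center_of_mem_card hL _ (by rw [Nat.card_zpowers, ho]) (Subgroup.mem_zpowers z)

/-- Conjugation on a normal cyclic subgroup is a power map with exponent congruent to `1` modulo `p`. -/
theorem exists_conj_exp (hL : IsPGroup p L) {m : L} (hm : m ∈ N) (y : L) :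
    ∃ l : ℤ, (p : ℤ) ∣ l - 1 ∧ y * m * y⁻¹ = m ^ l := by
  by_cases h1 : m = 1
  · exact ⟨1, by simp, by simp [h1]⟩
  have hmem : y * m * y⁻¹ ∈ Subgroup.zpowers m := by
    rw [zpowers_conj_eq N hm y]; exact Subgroup.mem_zpowers _
  obtain ⟨l, hl⟩ := hmem
  have hl' : y * m * y⁻¹ = m ^ l := hl.symm
  refine ⟨l, ?_, hl'⟩
  obtain ⟨k, hk⟩ := hL m
  obtain ⟨r, -, hr⟩ := (Nat.dvd_prime_pow hp.out).mp (orderOf_dvd_of_pow_eq_one hk)
  cases r with
  | zero => rw [pow_zero, orderOf_eq_one_iff] at hr; exact absurd hr h1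
  | succ r =>
    have ht : (m ^ p ^ r) ^ p = 1 := by rw [← pow_mul, ← pow_succ, ← hr, pow_orderOf_eq_one]
    have hc := mem_center_of_cyclic N hL (N.pow_mem hm (p ^ r)) ht
    have h2 : (y * m * y⁻¹) ^ p ^ r = m ^ p ^ r := by
      rw [conj_pow, Subgroup.mem_center_iff.mp hc y, mul_inv_cancel_right]
    rw [hl', ← zpow_natCast, ← zpow_natCast, ← zpow_mul] at h2
    have h3 : m ^ ((l - 1) * (p ^ r : ℕ)) = 1 := by
      rw [sub_mul, one_mul, zpow_sub, h2, zpow_natCast, mul_inv_cancel]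
    have h4 := orderOf_dvd_iff_zpow_eq_one.mpr h3
    rw [hr] at h4
    push_cast at h4
    rw [pow_succ', mul_comm (l - 1)] at h4
    rw [mul_comm (p : ℤ) ((p : ℤ) ^ r)] at h4
    exact (mul_dvd_mul_iff_left (pow_ne_zero _ (by exact_mod_cast hp.out.pos.ne'))).mp h4

/-- The `p`-th power of a product with an element of a normal cyclic subgroup. -/
theorem exists_mul_pow (hp2 : p ≠ 2) (hL : IsPGroup p L) {m : L} (hm : m ∈ N) (y : L) :
    ∃ s : ℤ, (p : ℤ) ^ 2 ∣ s - p ∧ (m * y) ^ p = m ^ s * y ^ p := by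
  obtain ⟨l, hl, hconj⟩ := exists_conj_exp N hL hm y
  have hconj' : ∀ i : ℕ, y ^ i * m = m ^ (l ^ i) * y ^ i := by
    intro i
    induction i with
    | zero => simp
    | succ i ih =>
      have hyk : ∀ k : ℤ, y * m ^ k = m ^ (l * k) * y := by
        intro k
        rw [zpow_mul, ← hconj, conj_zpow, inv_mul_cancel_right]
      calc y ^ (i + 1) * m = y * (y ^ i * m) := by rw [pow_succ', mul_assoc]
        _ = y * (m ^ (l ^ i) * y ^ i) := by rw [ih]
        _ = (y * m ^ (l ^ i)) * y ^ i := by rw [mul_assoc]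
        _ = m ^ (l ^ (i + 1)) * y ^ (i + 1) := by rw [hyk, mul_assoc, ← pow_succ', ← pow_succ']
  have hpow : ∀ n : ℕ, (m * y) ^ n = m ^ (∑ i ∈ Finset.range n, l ^ i) * y ^ n := by
    intro n
    induction n with
    | zero => simp
    | succ n ih =>
      rw [pow_succ, ih, Finset.sum_range_succ, zpow_add]
      calc m ^ (∑ i ∈ Finset.range n, l ^ i) * y ^ n * (m * y)
          = m ^ (∑ i ∈ Finset.range n, l ^ i) * (y ^ n * m) * y := by group
        _ = _ := by rw [hconj', pow_succ]; group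
  refine ⟨_, ?_, hpow p⟩
  obtain ⟨b, hb⟩ := hl
  have hsq := odd_sq_dvd_geom_sum₂_sub (R := ℤ) (a := 1) (b := b) (p := p) (hp.out.odd_of_ne_two hp2)
  simpa [← hb, mul_comm] using hsq

omit [Finite L] hp N in
/-- The exponent in the `p`-th power of `c ^ j * y` is linear in `j`. -/
theorem mul_pow_zpow (c y : L) {l : ℤ} (hl : y * c * y⁻¹ = c ^ l) (n : ℕ) {e : ℤ}
    (h : (c * y) ^ n = c ^ e * y ^ n) (j : ℤ) : (c ^ j * y) ^ n = c ^ (j * e) * y ^ n := by
  have hyk : ∀ k : ℤ, y * c ^ k = c ^ (l * k) * y := by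
    intro k
    rw [zpow_mul, ← hl, conj_zpow, inv_mul_cancel_right]
  have hyi : ∀ (i : ℕ) (k : ℤ), y ^ i * c ^ k = c ^ (l ^ i * k) * y ^ i := by
    intro i
    induction i with
    | zero => intro k; simp
    | succ i ih =>
      intro k
      rw [pow_succ', mul_assoc, ih, ← mul_assoc, hyk, mul_assoc, pow_succ', mul_assoc l (l ^ i) k]
  have hgen : ∀ (j : ℤ) (n : ℕ), (c ^ j * y) ^ n = c ^ (j * ∑ i ∈ Finset.range n, l ^ i) * y ^ n := by
    intro j n
    induction n with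
    | zero => simp
    | succ n ih =>
      rw [pow_succ, ih, Finset.sum_range_succ, mul_add, zpow_add]
      calc c ^ (j * ∑ i ∈ Finset.range n, l ^ i) * y ^ n * (c ^ j * y)
          = c ^ (j * ∑ i ∈ Finset.range n, l ^ i) * (y ^ n * c ^ j) * y := by group
        _ = _ := by rw [hyi, mul_comm (l ^ n) j, pow_succ]; simp only [mul_assoc]
  have h1 := hgen 1 n
  rw [zpow_one, one_mul, h] at h1
  rw [hgen j n, mul_comm j e, mul_comm j (∑ i ∈ Finset.range n, l ^ i), zpow_mul, zpow_mul,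
    mul_right_cancel h1]

theorem exists_mul_pow' (hp2 : p ≠ 2) (hL : IsPGroup p L) {m : L} (hm : m ∈ N) (y : L)
    (h2 : m ^ p ^ 2 = 1) : (m * y) ^ p = m ^ p * y ^ p := by
  obtain ⟨s, ⟨t, ht⟩, h⟩ := exists_mul_pow N hp2 hL hm y
  rw [h]
  congr 1
  have hs : s = (p : ℤ) + ((p ^ 2 : ℕ) : ℤ) * t := by push_cast; linarith
  rw [hs, zpow_add, zpow_mul, zpow_natCast, zpow_natCast, h2, one_zpow, mul_one]

/-- An element whose `p ^ 2`-th power is trivial times `s` is itself of order dividing `p ^ 2`. -/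
theorem pow_eq_one_of_zpow (hL : IsPGroup p L) {m : L} {s : ℤ} {k : ℕ} (hs : (p : ℤ) ^ 2 ∣ s - p)
    (h : (m ^ s) ^ p ^ k = 1) : m ^ p ^ (k + 1) = 1 := by
  obtain ⟨t, ht⟩ := hs
  have he : s = (p : ℤ) * (1 + p * t) := by linarith
  obtain ⟨j, hj⟩ := hL m
  have hco : IsCoprime ((p : ℤ) ^ j) (1 + p * t) :=
    (show IsCoprime (p : ℤ) (1 + p * t) from ⟨-t, 1, by ring⟩).pow_left
  obtain ⟨a, b, hab⟩ := hco
  have h' : m ^ (((p ^ (k + 1) : ℕ) : ℤ) * (1 + p * t)) = 1 := by
    rw [← zpow_natCast, ← zpow_mul] at h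
    rw [← h]; congr 1; push_cast; rw [he]; ring
  have hj' : m ^ ((p ^ j : ℕ) : ℤ) = 1 := by rw [zpow_natCast]; exact hj
  calc m ^ p ^ (k + 1) = m ^ (((p ^ (k + 1) : ℕ) : ℤ) * 1) := by rw [mul_one, zpow_natCast]
    _ = m ^ (((p ^ j : ℕ) : ℤ) * (a * (p ^ (k + 1) : ℕ)) + ((p ^ (k + 1) : ℕ) : ℤ) * (1 + p * t) * b) := by
        congr 1; push_cast; linear_combination -(p : ℤ) ^ (k + 1) * hab
    _ = 1 := by rw [zpow_add, zpow_mul, hj', one_zpow, zpow_mul, h', one_zpow, one_mul]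

end Cfsg.Agent.Transfer.MetaOmega
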