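import Cfsg.Agent.Transfer.MetaOmega.Basic

/-! Structure of the elements of order at most `p ^ 2`. -/

set_option autoImplicit false

namespace Cfsg.Agent.Transfer.MetaOmega

open Cfsg Subgroup

variable {L : Type*} [Group L] [Finite L] {p : ℕ} [hp : Fact p.Prime]

theorem not_isCyclic [Nontrivial L] (hL : IsPGroup p L)
    (hnc : ∀ C : Subgroup L, IsCyclic C → C.index ≠ p) : ¬ IsCyclic L := by
  intro hc
  haveI := hc
  obtain ⟨m, hm⟩ := IsPGroup.iff_card.mp hL
  have hm0 : m ≠ 0 := by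
    rintro rfl
    rw [pow_zero] at hm
    exact absurd hm Finite.one_lt_card.ne'
  obtain ⟨C, hC⟩ := Sylow.exists_subgroup_card_pow_prime p (G := L) (n := m - 1)
    (hm ▸ pow_dvd_pow p (Nat.sub_le m 1))
  refine hnc C inferInstance ?_
  have h := C.card_mul_index
  rw [hC, hm] at h
  exact Nat.eq_of_mul_eq_mul_left (pow_pos hp.out.pos (m - 1)) (h.trans (by
    rw [← pow_succ]; congr 1; omega))

/-- The data used in the analysis. -/
structure Frame (p : ℕ) (L : Type*) [Group L] where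
  N : Subgroup L
  hN : N.Normal
  hcyc : IsCyclic N
  hcomm : ∀ x y : L, x * y * x⁻¹ * y⁻¹ ∈ N
  A : Subgroup L
  hAn : A.Normal
  hA : IsElementaryAbelian p A
  hAall : ∀ x : L, x ^ p = 1 → x ∈ A
  hAcard : Nat.card A = p ^ 2
  u : L
  hu : u ∈ A
  huN : u ∉ N
  w : L
  hw : w ^ p = u
  root : ∀ n ∈ N, n ^ p = 1 → ∃ m ∈ N, m ^ p = n
  form : ∀ x : L, x ^ p ^ 2 = 1 → ∃ n ∈ N, ∃ j : ℤ, x * (w ^ j)⁻¹ = n

theorem exists_frame [Nontrivial L] (hp2 : p ≠ 2) (hL : IsPGroup p L) (hmc : IsMetacyclic L)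
    (hnc : ∀ C : Subgroup L, IsCyclic C → C.index ≠ p) : Nonempty (Frame p L) := by
  have hncyc := not_isCyclic hL hnc
  obtain ⟨A, hAn, hA, hAall, hAc, -⟩ := OddLocal.RankTwo.exists_omega_of_metacyclic hp2 hL hmc
  have hAcard := hAc hncyc
  haveI := hAn
  obtain ⟨N, hNn, hN, hq⟩ := hmc
  haveI := hNn; haveI := hN; haveI := hq
  set π := QuotientGroup.mk' N with hπ
  have hmemN : ∀ x : L, π x = 1 ↔ x ∈ N := fun x => QuotientGroup.eq_one_iff x
  obtain ⟨q, hqg⟩ := IsCyclic.exists_generator (α := L ⧸ N)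
  obtain ⟨g, rfl⟩ := QuotientGroup.mk'_surjective N q
  obtain ⟨s, hs⟩ := IsPGroup.iff_card.mp (hL.to_quotient N)
  have hord : orderOf (π g) = p ^ s := by rw [← hs, orderOf_eq_card_of_forall_mem_zpowers hqg]
  have hN1 : N.index = p ^ s := by rw [Subgroup.index_eq_card, hs]
  have hs2 : 2 ≤ s := by
    rcases Nat.lt_or_ge s 2 with h | h
    · exfalso
      interval_cases s
      · rw [pow_zero, Subgroup.index_eq_one] at hN1
        subst hN1
        exact hncyc (isCyclic_of_surjective Subgroup.topEquiv Subgroup.topEquiv.surjective)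
      · exact hnc N hN (by rw [hN1, pow_one])
    · exact h
  obtain ⟨r, hr⟩ := IsPGroup.iff_card.mp (hL.to_subgroup N)
  have hcardL : Nat.card L = p ^ (r + s) := by rw [← N.card_mul_index, hr, hN1, pow_add]
  -- an element of `A` outside `N`
  obtain ⟨v, hv, hvN⟩ : ∃ v ∈ A, v ∉ N := by
    by_contra h
    push Not at h
    haveI : IsCyclic A := isCyclic_of_le h
    have h1 := OddLocal.RankTwo.isCyclic_card_le_of_exponent (R := A) (p := p)
      (fun x => Subtype.ext (hA.2 x x.2))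
    rw [hAcard] at h1
    exact absurd h1 (not_le.mpr (lt_self_pow₀ hp.out.one_lt one_lt_two))
  have hvo : orderOf (π v) = p :=
    orderOf_eq_prime (by rw [← map_pow, hA.2 v hv, map_one]) (fun h => hvN ((hmemN v).mp h))
  have hPo : orderOf (π g ^ p ^ (s - 1)) = p := by
    refine orderOf_eq_prime ?_ ?_
    · rw [← pow_mul, ← pow_succ, show s - 1 + 1 = s by omega, ← hord, pow_orderOf_eq_one]
    · intro h
      have := orderOf_dvd_of_pow_eq_one h
      rw [hord, Nat.pow_dvd_pow_iff_le_right hp.out.one_lt] at this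
      omega
  have hzeq : Subgroup.zpowers (π v) = Subgroup.zpowers (π g ^ p ^ (s - 1)) :=
    OddLocal.eq_of_card_eq_of_isCyclic (C := (⊤ : Subgroup (L ⧸ N)))
      (isCyclic_of_surjective Subgroup.topEquiv.symm Subgroup.topEquiv.symm.surjective) le_top le_top
      (by rw [Nat.card_zpowers, Nat.card_zpowers, hvo, hPo])
  obtain ⟨i, hi⟩ : π g ^ p ^ (s - 1) ∈ Subgroup.zpowers (π v) := hzeq ▸ Subgroup.mem_zpowers _
  set u := v ^ i with hu_def
  have hu : u ∈ A := A.zpow_mem hv i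
  have hπu : π u = π g ^ p ^ (s - 1) := by rw [hu_def, map_zpow]; exact hi
  have huN : u ∉ N := fun h => by
    rw [← hmemN, hπu] at h
    rw [h, orderOf_one] at hPo
    exact hp.out.one_lt.ne hPo
  -- a root of `u`
  set y := g ^ p ^ (s - 2) with hy
  have hyp : π (y ^ p) = π u := by
    rw [hπu, hy, map_pow, map_pow, ← pow_mul, ← pow_succ, show s - 2 + 1 = s - 1 by omega]
  set n₀ := y ^ p * u⁻¹ with hn₀
  have hn₀N : n₀ ∈ N := by rw [← hmemN, hn₀, map_mul, map_inv, hyp, mul_inv_cancel]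
  obtain ⟨c, hc⟩ := (Subgroup.isCyclic_iff_exists_zpowers_eq_top N).mp hN
  obtain ⟨k, hk⟩ : n₀ ∈ Subgroup.zpowers c := hc.symm ▸ hn₀N
  have hcN : c ∈ N := hc ▸ Subgroup.mem_zpowers c
  have hpk : (p : ℤ) ∣ k := by
    by_contra hnd
    -- then `g` generates a subgroup of index at most `p`
    obtain ⟨a, -, ha⟩ := (Nat.dvd_prime_pow hp.out).mp (hcardL ▸ orderOf_dvd_natCard g)
    have has : s ≤ a := by
      have := orderOf_map_dvd π g
      rwa [hord, ha, Nat.pow_dvd_pow_iff_le_right hp.out.one_lt] at this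
    obtain ⟨e, he, hpe⟩ := exists_mul_pow N hp2 hL hn₀N u
    have hy2 : y ^ p ^ (a - s + 2) = 1 := by
      rw [hy, ← pow_mul, ← pow_add, show s - 2 + (a - s + 2) = a by omega, ← ha, pow_orderOf_eq_one]
    have hy3 : (n₀ ^ e) ^ p ^ (a - s) = 1 := by
      have : (y ^ p) ^ p = n₀ ^ e := by
        rw [show y ^ p = n₀ * u by rw [hn₀, inv_mul_cancel_right], hpe, hA.2 u hu, mul_one]
      rw [← this, ← pow_mul, ← pow_mul, ← hy2]
      congr 1
      ring
    have h4 := pow_eq_one_of_zpow hL he hy3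
    have hco : IsCoprime ((p : ℤ) ^ r) k :=
      ((Nat.prime_iff_prime_int.mp hp.out).coprime_iff_not_dvd.mpr hnd).pow_left
    obtain ⟨x₁, x₂, hx⟩ := hco
    have hcr : c ^ (((p ^ r : ℕ) : ℤ)) = 1 := by
      rw [zpow_natCast, ← hr]
      exact congrArg Subtype.val (pow_card_eq_one' (x := (⟨c, hcN⟩ : N)))
    have hc1 : c = n₀ ^ x₂ := by
      rw [← hk]
      show c = (c ^ k) ^ x₂
      calc c = c ^ (((p ^ r : ℕ) : ℤ) * x₁ + k * x₂) := by
            push_cast; rw [show (p : ℤ) ^ r * x₁ + k * x₂ = 1 by linarith, zpow_one]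
        _ = _ := by rw [zpow_add, zpow_mul, hcr, one_zpow, one_mul, zpow_mul]
    have hc2 : c ^ p ^ (a - s + 1) = 1 := by
      rw [hc1, ← zpow_natCast, ← zpow_mul, mul_comm, zpow_mul, zpow_natCast, h4, one_zpow]
    have hord2 : orderOf c = p ^ r := by rw [← Nat.card_zpowers, hc, hr]
    have hra : r ≤ a - s + 1 := by
      have := orderOf_dvd_of_pow_eq_one hc2
      rwa [hord2, Nat.pow_dvd_pow_iff_le_right hp.out.one_lt] at this
    have hidx := (Subgroup.zpowers g).card_mul_index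
    rw [Nat.card_zpowers, ha, hcardL] at hidx
    have hle : a ≤ r + s := (Nat.pow_dvd_pow_iff_le_right hp.out.one_lt).mp ⟨_, hidx.symm⟩
    rcases (show r + s = a ∨ r + s = a + 1 by omega) with h | h
    · exact hncyc ((isCyclic_iff_exists_zpowers_eq_top).mpr ⟨g, Subgroup.eq_top_of_card_eq _ (by
        rw [Nat.card_zpowers, ha, hcardL, h])⟩)
    · rw [h, pow_succ] at hidx
      exact hnc _ (Subgroup.isCyclic_zpowers g) (Nat.eq_of_mul_eq_mul_left (pow_pos hp.out.pos a) hidx)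
  obtain ⟨k', rfl⟩ := hpk
  have hord2 : orderOf c = p ^ r := by rw [← Nat.card_zpowers, hc, hr]
  have hr2 : 2 ≤ r := by
    by_contra hlt
    obtain ⟨a, -, ha⟩ := (Nat.dvd_prime_pow hp.out).mp (hcardL ▸ orderOf_dvd_natCard g)
    have has : s ≤ a := by
      have := orderOf_map_dvd π g
      rwa [hord, ha, Nat.pow_dvd_pow_iff_le_right hp.out.one_lt] at this
    have hidx := (Subgroup.zpowers g).card_mul_index
    rw [Nat.card_zpowers, ha, hcardL] at hidx
    have hle : a ≤ r + s := (Nat.pow_dvd_pow_iff_le_right hp.out.one_lt).mp ⟨_, hidx.symm⟩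
    rcases (show r + s = a ∨ r + s = a + 1 by omega) with h | h
    · exact hncyc ((isCyclic_iff_exists_zpowers_eq_top).mpr ⟨g, Subgroup.eq_top_of_card_eq _ (by
        rw [Nat.card_zpowers, ha, hcardL, h])⟩)
    · rw [h, pow_succ] at hidx
      exact hnc _ (Subgroup.isCyclic_zpowers g) (Nat.eq_of_mul_eq_mul_left (pow_pos hp.out.pos a) hidx)
  have hroot : ∀ n ∈ N, n ^ p = 1 → ∃ m ∈ N, m ^ p = n := by
    intro n hn hnp
    obtain ⟨q, hq⟩ : n ∈ Subgroup.zpowers c := hc.symm ▸ hn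
    have hq' : c ^ q = n := hq
    have h1 : c ^ (q * (p : ℤ)) = 1 := by rw [zpow_mul, zpow_natCast, hq', hnp]
    have h2 := orderOf_dvd_iff_zpow_eq_one.mpr h1
    rw [hord2, show r = (r - 1) + 1 by omega, pow_succ] at h2
    push_cast at h2
    have h3 : (p : ℤ) ^ (r - 1) ∣ q :=
      (mul_dvd_mul_iff_right (by exact_mod_cast hp.out.pos.ne' : (p : ℤ) ≠ 0)).mp h2
    obtain ⟨q', rfl⟩ := (dvd_pow_self (p : ℤ) (by omega : r - 1 ≠ 0)).trans h3
    exact ⟨c ^ q', N.zpow_mem hcN q', by rw [← hq', ← zpow_natCast, ← zpow_mul, mul_comm]⟩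
  -- adjust `y`
  obtain ⟨w, hw, hwπ⟩ : ∃ w : L, w ^ p = u ∧ π w = π y := by
    obtain ⟨e, ⟨t, ht⟩, hpe⟩ := exists_mul_pow N hp2 hL hcN y
    have hco : IsCoprime ((p : ℤ) ^ r) (1 + p * t) :=
      (show IsCoprime (p : ℤ) (1 + p * t) from ⟨-t, 1, by ring⟩).pow_left
    obtain ⟨x₁, x₂, hx⟩ := hco
    have hcr : c ^ (((p ^ r : ℕ) : ℤ)) = 1 := by
      rw [zpow_natCast, ← hr]
      exact congrArg Subtype.val (pow_card_eq_one' (x := (⟨c, hcN⟩ : N)))
    refine ⟨c ^ (-(k' * x₂)) * y, ?_, ?_⟩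
    · -- the exponent does not depend on the element of `N`
      have key : ∀ j : ℤ, (c ^ j * y) ^ p = c ^ (j * e) * y ^ p := by
        intro j
        obtain ⟨l, -, hl⟩ := exists_conj_exp N hL hcN y
        exact mul_pow_zpow c y hl p hpe j
      have hk' : c ^ ((p : ℤ) * k') = n₀ := hk
      rw [key, show y ^ p = c ^ ((p : ℤ) * k') * u by rw [hk', hn₀, inv_mul_cancel_right], ← mul_assoc,
        ← zpow_add]
      have he' : e = (p : ℤ) * (1 + p * t) := by linarith
      rw [show -(k' * x₂) * e + (p : ℤ) * k' = ((p ^ r : ℕ) : ℤ) * (p * k' * x₁) by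
        subst he'; push_cast; linear_combination -((p : ℤ) * k') * hx, zpow_mul, hcr, one_zpow, one_mul]
    · rw [map_mul, (hmemN _).mpr (N.zpow_mem hcN _), one_mul]
  refine ⟨⟨N, hNn, hN, ?_, A, hAn, hA, hAall, hAcard, u, hu, huN, w, hw, hroot, ?_⟩⟩
  · intro x y
    rw [← hmemN, map_mul, map_mul, map_mul, map_inv, map_inv]
    letI := IsCyclic.commGroup (α := L ⧸ N)
    rw [mul_comm (π x) (π y), mul_inv_cancel_right, mul_inv_cancel]
  · intro x hx
    obtain ⟨i, hi⟩ := hqg (π x)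
    have hi' : π g ^ i = π x := hi
    have h1 : π g ^ (i * (p ^ 2 : ℕ)) = 1 := by rw [zpow_mul, zpow_natCast, hi', ← map_pow, hx, map_one]
    have h2 := orderOf_dvd_iff_zpow_eq_one.mpr h1
    rw [hord, show p ^ s = p ^ (s - 2) * p ^ 2 by rw [← pow_add]; congr 1; omega] at h2
    push_cast at h2
    obtain ⟨j, hj⟩ := (mul_dvd_mul_iff_right (pow_ne_zero 2 (by exact_mod_cast hp.out.pos.ne' : (p : ℤ) ≠ 0))).mp h2
    refine ⟨_, ?_, j, rfl⟩
    rw [← hmemN, map_mul, map_inv, map_zpow, hwπ, hy, map_pow, ← hi', hj, ← zpow_natCast, ← zpow_mul]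
    push_cast
    rw [mul_inv_cancel]

end Cfsg.Agent.Transfer.MetaOmega
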